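import Cfsg.Agent.H6.LR.M.Pres
import Cfsg.Agent.H6.LR.M.Chk0

set_option autoImplicit false
set_option maxRecDepth 100000
set_option Elab.async false

namespace Cfsg.H6.LR.M

theorem ptOK : PtOK img 275 LS EQS := ptOK_of_chk fun p h1 h2 => by
  rw [← ptU_eq]
  exact (allR_range p0 (by norm_num : 0 + 275 = 275)) p h1 h2

theorem hrep : repOK 18 1486034431776358958537884813664031080579328 LS EQS D LR.M.R = true := by decide +kernel

theorem rep : Good (evR img 275 18) 1486034431776358958537884813664031080579328 ∧ Rels (evR img 275 18) LR.M.R ∧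
    IsAct (MonoidHom.id _) (evR img 275 18) img 275 18 := rep_sound ptOK hrep

theorem iv0 {G : Type*} [Group G] {φ : G →* Equiv.Perm ℕ} {ev : ℕ → G} (h : IsAct φ ev img 275 18) :
    orb φ (gen ev Ws) 1 = Set.Ico 1 113 :=
  ivl_sound h (by decide +kernel) (allR_range q0_0 (by norm_num : 1 + 112 = 113))

theorem iv1 {G : Type*} [Group G] {φ : G →* Equiv.Perm ℕ} {ev : ℕ → G} (h : IsAct φ ev img 275 18) :
    orb φ (gen ev Ws) 113 = Set.Ico 113 275 :=
  ivl_sound h (by decide +kernel) (allR_range q1_0 (by norm_num : 113 + 162 = 275))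


end Cfsg.H6.LR.M
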